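import Mathlib.RingTheory.Filtration
import Mathlib.RingTheory.LocalRing.MaximalIdeal.Basic
import Mathlib.RingTheory.LocalRing.RingHom.Basic
import Mathlib.RingTheory.Ideal.Quotient.Noetherian
import Mathlib.Algebra.MvPolynomial.Eval

set_option autoImplicit false

open IsLocalRing

namespace Groth.Agent.Gaga.H297.HolAlg

/-- **Krull**: an ideal of a Noetherian local ring is closed. -/
theorem mem_of_forall_mem_sup_pow {R : Type*} [CommRing R] [IsNoetherianRing R] [IsLocalRing R]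
    (J : Ideal R) {a : R} (h : ∀ k : ℕ, a ∈ J ⊔ maximalIdeal R ^ k) : a ∈ J := by
  by_cases hJ : J = ⊤
  · rw [hJ]; trivial
  have : Nontrivial (R ⧸ J) := Ideal.Quotient.nontrivial_iff.2 hJ
  have : IsLocalRing (R ⧸ J) :=
    IsLocalRing.of_surjective' (Ideal.Quotient.mk J) Ideal.Quotient.mk_surjective
  rw [← Ideal.Quotient.eq_zero_iff_mem, ← Ideal.mem_bot,
    ← Ideal.iInf_pow_eq_bot_of_isLocalRing (maximalIdeal (R ⧸ J)) (Ideal.IsPrime.ne_top'),
    Ideal.mem_iInf]
  intro k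
  obtain ⟨u, hu, v, hv, rfl⟩ := Submodule.mem_sup.1 (h k)
  rw [map_add, Ideal.Quotient.eq_zero_iff_mem.2 hu, zero_add]
  have h1 : (maximalIdeal R).map (Ideal.Quotient.mk J) ≤ maximalIdeal (R ⧸ J) :=
    ((IsLocalRing.local_hom_TFAE (Ideal.Quotient.mk J)).out 0 2).1
      (IsLocalHom.of_surjective (Ideal.Quotient.mk J) Ideal.Quotient.mk_surjective)
  have h2 := Ideal.mem_map_of_mem (Ideal.Quotient.mk J) hv
  rw [Ideal.map_pow] at h2
  exact Ideal.pow_right_mono h1 k h2

section Sq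

variable {AP AW BP BW : Type*} [CommRing AP] [CommRing AW] [CommRing BP] [CommRing BW]
  [IsLocalRing AP] [IsLocalRing AW]
  (φP : AP →+* BP) (φW : AW →+* BW) (g : AP →+* AW) [IsLocalHom g] (G : BP →+* BW)
  (hG : ∀ a, G (φP a) = φW (g a))
  (I : Ideal AW) (hs : ∀ a : AW, ∃ b : AP, a - g b ∈ I)

omit [IsLocalHom g] in
include hs in
/-- Elements of `m_W ^ k` lift to `m_P ^ k` modulo `I`. -/
theorem exists_lift_pow (hI : I ≠ ⊤) (k : ℕ) {x : AW} (hx : x ∈ maximalIdeal AW ^ k) :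
    ∃ b ∈ maximalIdeal AP ^ k, x - g b ∈ I := by
  have hIm : I ≤ maximalIdeal AW := le_maximalIdeal hI
  have h1 : ∀ x ∈ maximalIdeal AW, ∃ b ∈ maximalIdeal AP, x - g b ∈ I := by
    intro x hx
    obtain ⟨b, hb⟩ := hs x
    refine ⟨b, ?_, hb⟩
    have h2 : g b ∈ maximalIdeal AW := by
      have := sub_mem hx (hIm hb)
      rwa [sub_sub_cancel] at this
    rw [mem_maximalIdeal, mem_nonunits_iff] at h2 ⊢
    exact fun h => h2 (h.map g)
  induction k generalizing x with
  | zero =>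
    obtain ⟨b, hb⟩ := hs x
    exact ⟨b, by rw [pow_zero, Ideal.one_eq_top]; trivial, hb⟩
  | succ k ih =>
    rw [pow_succ] at hx
    induction hx using Submodule.mul_induction_on' with
    | mem_mul_mem u hu v hv =>
      obtain ⟨b, hb, hb'⟩ := ih hu
      obtain ⟨c, hc, hc'⟩ := h1 v hv
      refine ⟨b * c, by rw [pow_succ]; exact Ideal.mul_mem_mul hb hc, ?_⟩
      have e : u * v - g (b * c) = (u - g b) * v + g b * (v - g c) := by
        rw [map_mul]; ring
      rw [e]
      exact add_mem (Ideal.mul_mem_right _ _ hb') (Ideal.mul_mem_left _ _ hc')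
    | add u hu v hv h h' =>
      obtain ⟨b, hb, hb'⟩ := h
      obtain ⟨c, hc, hc'⟩ := h'
      refine ⟨b + c, add_mem hb hc, ?_⟩
      have e : u + v - g (b + c) = (u - g b) + (v - g c) := by rw [map_add]; ring
      rw [e]
      exact add_mem hb' hc'

/-- Contraction of `I B + M ^ k`. -/
theorem mem_sup_pow_of_map {A B : Type*} [CommRing A] [CommRing B] [IsLocalRing A] (φ : A →+* B)
    (k : ℕ)
    (h1 : ∀ b : B, ∃ a : A, φ a - b ∈ (maximalIdeal A).map φ ^ k)
    (h2 : ∀ a : A, φ a ∈ (maximalIdeal A).map φ ^ k → a ∈ maximalIdeal A ^ k)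
    (I : Ideal A) {a : A} (ha : φ a ∈ I.map φ ⊔ (maximalIdeal A).map φ ^ k) :
    a ∈ I ⊔ maximalIdeal A ^ k := by
  have key : ∀ x ∈ I.map φ, ∃ i ∈ I, x - φ i ∈ (maximalIdeal A).map φ ^ k := by
    intro x hx
    induction hx using Submodule.span_induction with
    | mem x hx =>
      obtain ⟨i, hi, rfl⟩ := hx
      exact ⟨i, hi, by rw [sub_self]; exact zero_mem _⟩
    | zero => exact ⟨0, zero_mem _, by rw [map_zero, sub_self]; exact zero_mem _⟩
    | add x y _ _ hx hy =>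
      obtain ⟨i, hi, hi'⟩ := hx
      obtain ⟨j, hj, hj'⟩ := hy
      refine ⟨i + j, add_mem hi hj, ?_⟩
      have e : x + y - φ (i + j) = (x - φ i) + (y - φ j) := by rw [map_add]; ring
      rw [e]
      exact add_mem hi' hj'
    | smul b x _ hx =>
      obtain ⟨i, hi, hi'⟩ := hx
      obtain ⟨c, hc⟩ := h1 b
      refine ⟨c * i, Ideal.mul_mem_left _ _ hi, ?_⟩
      have e : b • x - φ (c * i) = b * (x - φ i) - (φ c - b) * φ i := by
        rw [map_mul, smul_eq_mul]; ring
      rw [e]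
      exact sub_mem (Ideal.mul_mem_left _ _ hi') (Ideal.mul_mem_right _ _ hc)
  obtain ⟨u, hu, v, hv, huv⟩ := Submodule.mem_sup.1 ha
  obtain ⟨i, hi, hi'⟩ := key u hu
  have h3 : a - i ∈ maximalIdeal A ^ k := by
    refine h2 _ ?_
    have e : φ (a - i) = (u - φ i) + v := by rw [map_sub, ← huv]; ring
    rw [e]
    exact add_mem hi' hv
  have e : a = i + (a - i) := by ring
  rw [e]
  exact add_mem (Ideal.mem_sup_left hi) (Ideal.mem_sup_right h3)

include hs hG in
/-- [LA2], algebraic form. -/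
theorem kernel_mod [IsNoetherianRing BP] [IsLocalRing BP]
    (hP : (maximalIdeal AP).map φP = maximalIdeal BP)
    (hP' : ∀ (k : ℕ) (b : BP), ∃ a : AP, φP a - b ∈ (maximalIdeal AP).map φP ^ k)
    (hW1 : ∀ (k : ℕ) (b : BW), ∃ a : AW, φW a - b ∈ (maximalIdeal AW).map φW ^ k)
    (hW2 : ∀ (k : ℕ) (a : AW), φW a ∈ (maximalIdeal AW).map φW ^ k → a ∈ maximalIdeal AW ^ k)
    (K : Ideal AP) (hK : ∀ b : AP, g b ∈ I → b ∈ K)
    (b : BP) (hb : G b ∈ I.map φW) : b ∈ K.map φP := by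
  by_cases hI : I = ⊤
  · have : K = ⊤ := (Ideal.eq_top_iff_one _).2 (hK 1 (by rw [hI]; trivial))
    rw [this, Ideal.map_top]; trivial
  refine mem_of_forall_mem_sup_pow _ fun k => ?_
  obtain ⟨a, ha⟩ := hP' k b
  have hGM : ((maximalIdeal AP).map φP ^ k).map G ≤ (maximalIdeal AW).map φW ^ k := by
    rw [Ideal.map_pow]
    refine Ideal.pow_right_mono ?_ k
    rw [Ideal.map_map, Ideal.map_le_iff_le_comap]
    intro x hx
    rw [Ideal.mem_comap, RingHom.comp_apply, hG]
    refine Ideal.mem_map_of_mem _ ?_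
    rw [mem_maximalIdeal, mem_nonunits_iff] at hx ⊢
    exact fun h => hx (isUnit_of_map_unit g x h)
  have h1 : φW (g a) ∈ I.map φW ⊔ (maximalIdeal AW).map φW ^ k := by
    rw [← hG]
    have e : G (φP a) = G b + G (φP a - b) := by rw [map_sub]; ring
    rw [e]
    exact add_mem (Ideal.mem_sup_left hb) (Ideal.mem_sup_right (hGM (Ideal.mem_map_of_mem G ha)))
  have h2 := mem_sup_pow_of_map φW k (hW1 k) (hW2 k) I h1
  obtain ⟨i, hi, x, hx, hix⟩ := Submodule.mem_sup.1 h2
  obtain ⟨c, hc, hc'⟩ := exists_lift_pow g I hs hI k hx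
  have h3 : a - c ∈ K := by
    refine hK _ ?_
    have e : g (a - c) = i + (x - g c) := by rw [map_sub, ← hix]; ring
    rw [e]
    exact add_mem hi hc'
  have e : b = φP (a - c) + (φP c - (φP a - b)) := by rw [map_sub]; ring
  rw [e]
  refine add_mem (Ideal.mem_sup_left (Ideal.mem_map_of_mem _ h3)) (Ideal.mem_sup_right ?_)
  rw [hP] at ha
  refine sub_mem ?_ ha
  rw [← hP, ← Ideal.map_pow]
  exact Ideal.mem_map_of_mem _ hc

end Sq

/-- Polynomials in congruent elements are congruent. -/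
theorem eval₂_sub_mem {R B : Type*} [CommRing R] [CommRing B] (c : R →+* B) {n : ℕ}
    (u v : Fin n → B) (J : Ideal B) (h : ∀ i, u i - v i ∈ J) (p : MvPolynomial (Fin n) R) :
    MvPolynomial.eval₂Hom c u p - MvPolynomial.eval₂Hom c v p ∈ J := by
  rw [← Ideal.Quotient.eq_zero_iff_mem, map_sub, sub_eq_zero]
  have e : (Ideal.Quotient.mk J).comp (MvPolynomial.eval₂Hom c u) =
      (Ideal.Quotient.mk J).comp (MvPolynomial.eval₂Hom c v) := by
    refine MvPolynomial.ringHom_ext (fun r => ?_) (fun i => ?_)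
    · simp
    · simp only [RingHom.comp_apply, MvPolynomial.eval₂Hom_X']
      rw [← sub_eq_zero, ← map_sub]
      exact Ideal.Quotient.eq_zero_iff_mem.2 (h i)
  exact congrArg (fun q => q p) e

end Groth.Agent.Gaga.H297.HolAlg
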