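import Groth.Agent.Gaga.H297.Taylor
import Groth.Agent.Gaga.H297.HolAlg
import Groth.Agent.Gaga.H145.Noeth
import Groth.Agent.Gaga.H976.Defs
import Groth.Agent.S4314

/-!
# Surjectivity of holomorphic stalks modulo an ideal of algebraic germs, and its kernel

`f : W ⟶ P` over `ℂ`, `I` an ideal sheaf on `W`, `y ∈ W(ℂ)` with `O_{P,f y} → O_{W,y} / I_y`
surjective.

* `hol_surjective_mod`: `hol_{P,f y} → hol_{W,y} / I_y hol_{W,y}` is surjective;
* `hol_kernel_mod`: its kernel is generated by the kernel of `O_{P,f y} → O_{W,y} / I_y`.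
-/

set_option autoImplicit false
set_option linter.dupNamespace false

open CategoryTheory AlgebraicGeometry Topology TopologicalSpace Opposite Filter
open Groth.Agent.An.H863.PtsBasic Groth.Agent.An.H863.PtsCont
open Groth.Agent.Gaga.H990.ChartAt Groth.Agent.Gaga.H990.Stalk Groth.Agent.Gaga.H145.Surj
open Groth.Agent.Gaga.H975.ModSec Groth.Agent.Gaga.H986.Stalk Groth.Agent.Gaga.H986.Pull
open Groth.Agent.Gaga.H976.Defs Groth.Agent.Gaga.H297.Taylor Groth.Agent.Gaga.H297.HolAlg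

noncomputable section

namespace Groth.Agent.Gaga.H297.HolMod

section One

variable {X : Scheme.{0}} [X.Over An.SC]

/-- The comparison map on stalks. -/
def φ (x : An.Pts X) : X.presheaf.stalk x.pt →+* StO (An.hol X) x :=
  (PresheafedSpace.Hom.stalkMap (An.anToScheme X) x).hom

/-- The germ of functions attached to an element of the stalk. -/
def tg (x : An.Pts X) : StO (An.hol X) x →+* (𝓝 x).Germ ℂ := toGerm x

lemma tg_injective (x : An.Pts X) : Function.Injective (tg x) := toGerm_injective x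

lemma φ_germ (x : An.Pts X) (U : X.Opens) (hx : x.pt ∈ U) (s : Γ(X, U)) :
    φ x (X.presheaf.germ U x.pt hx s) = holGerm x U hx s :=
  PresheafedSpace.stalkMap_germ_apply (An.anToScheme X) U x hx s

lemma tg_φ_germ (x : An.Pts X) (U : X.Opens) (hx : x.pt ∈ U) (s : Γ(X, U)) :
    tg x (φ x (X.presheaf.germ U x.pt hx s)) = ((fun z => evAt z U s : An.Pts X → ℂ) : (𝓝 x).Germ ℂ) :=
  toGerm_anToScheme x U hx s

theorem idealAt_eq (I : X.IdealSheafData) (x : An.Pts X) :
    idealAt I x = (stIdeal I x.pt).map (φ x) := by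
  unfold idealAt stIdeal
  rw [Ideal.map_iSup]
  refine iSup_congr fun U => ?_
  rw [Ideal.map_iSup]
  refine iSup_congr fun hx => ?_
  rw [Ideal.map_map]
  congr 1
  ext s
  exact (φ_germ x U.1 hx s).symm

/-- The value at `x`, as a ring homomorphism on the algebraic stalk. -/
def val (x : An.Pts X) : X.presheaf.stalk x.pt →+* ℂ :=
  (Germ.valueRingHom (x := x)).comp ((tg x).comp (φ x))

lemma val_germ (x : An.Pts X) (U : X.Opens) (hx : x.pt ∈ U) (s : Γ(X, U)) :
    val x (X.presheaf.germ U x.pt hx s) = evAt x U s :=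
  congrArg (Germ.valueRingHom (x := x)) (tg_φ_germ x U hx s)

lemma mem_maximalIdeal_iff (x : An.Pts X) (α : X.presheaf.stalk x.pt) :
    α ∈ IsLocalRing.maximalIdeal (X.presheaf.stalk x.pt) ↔ val x α = 0 := by
  obtain ⟨U, hU, s, rfl⟩ := TopCat.Presheaf.exists_germ_eq X.presheaf α
  have h1 : val x (X.presheaf.germ U x.pt hU s) = evAt x U s := val_germ x U hU s
  rw [IsLocalRing.mem_maximalIdeal, mem_nonunits_iff]
  refine Iff.trans ?_ (Eq.congr_left h1).symm
  rw [evAt_of_mem hU, ev_eq_zero_iff, X.mem_basicOpen s x.pt hU]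

/-- A differentiable function near `c`, as an element of `HolGerm c`. -/
def germOf {n : ℕ} (c : Fin n → ℂ) (G : (Fin n → ℂ) → ℂ) (hG : ∀ᶠ w in 𝓝 c, DifferentiableAt ℂ G w) :
    HolGerm c := ⟨(G : (𝓝 c).Germ ℂ), G, hG, rfl⟩

/-- Composite germs. -/
def cmp {U : X.Opens} {n : ℕ} (s : Fin n → Γ(X, U)) {x : An.Pts X} (hx : x.pt ∈ U) :
    HolGerm (vals U s x) →+* StO (An.hol X) x := compStk s hx

lemma tg_cmp_germOf {U : X.Opens} {n : ℕ} (s : Fin n → Γ(X, U)) {x : An.Pts X} (hx : x.pt ∈ U)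
    (G : (Fin n → ℂ) → ℂ) (hG : ∀ᶠ w in 𝓝 (vals U s x), DifferentiableAt ℂ G w) :
    tg x (cmp s hx (germOf _ G hG)) = ((fun z => G (vals U s z) : An.Pts X → ℂ) : (𝓝 x).Germ ℂ) :=
  toGerm_compStk s hx _

/-- Polynomials in sections. -/
lemma cmp_polyGerm {U : X.Opens} {n : ℕ} (s : Fin n → Γ(X, U)) {x : An.Pts X} (hx : x.pt ∈ U)
    (p : MvPolynomial (Fin n) ℂ) :
    cmp s hx (polyGerm _ p) =
      φ x (X.presheaf.germ U x.pt hx (MvPolynomial.eval₂Hom (strU U) s p)) := by
  apply tg_injective x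
  rw [tg_φ_germ]
  refine (toGerm_compStk s hx _).trans ?_
  rw [polyGerm_val, pullGerm_coe]
  refine Germ.coe_eq.2 ?_
  filter_upwards [(An.Pts.isOpen_preimage_pt U).mem_nhds hx] with z hz
  exact (evAt_eval₂ U s p hz).symm

variable [LocallyOfFiniteType (X ↘ An.SC)] [IsReduced X]

/-- The maximal ideal of the holomorphic stalk. -/
abbrev mx (x : An.Pts X) : Ideal (StO (An.hol X) x) :=
  (IsLocalRing.maximalIdeal (X.presheaf.stalk x.pt)).map (φ x)

omit [LocallyOfFiniteType (X ↘ An.SC)] [IsReduced X] in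
lemma cmp_mem {U : X.Opens} {n : ℕ} (s : Fin n → Γ(X, U)) {x : An.Pts X} (hx : x.pt ∈ U) (k : ℕ)
    {g : HolGerm (vals U s x)} (hg : g ∈ crd (vals U s x) ^ k) : cmp s hx g ∈ mx x ^ k := by
  have h1 : (crd (vals U s x)).map (cmp s hx) ≤ mx x := by
    rw [crd, Ideal.map_span, Ideal.span_le]
    rintro _ ⟨_, ⟨i, rfl⟩, rfl⟩
    change cmp s hx (polyGerm _ _) ∈ mx x
    rw [cmp_polyGerm]
    refine Ideal.mem_map_of_mem _ ?_
    rw [mem_maximalIdeal_iff]
    refine (val_germ x U hx _).trans ?_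
    rw [evAt_eval₂ U s _ hx]
    simp
  have h2 := Ideal.mem_map_of_mem (cmp s hx) hg
  rw [Ideal.map_pow] at h2
  exact Ideal.pow_right_mono h1 k h2

lemma isLocalRing (x : An.Pts X) : IsLocalRing (StO (An.hol X) x) :=
  IsLocalRing.of_unique_max_ideal ⟨mx x, (Groth.Agent.S4314.result X x).1.1,
    fun I hI => (Groth.Agent.S4314.result X x).1.2 I hI⟩

lemma map_max (x : An.Pts X) [IsLocalRing (StO (An.hol X) x)] :
    mx x = IsLocalRing.maximalIdeal (StO (An.hol X) x) :=
  ((Groth.Agent.S4314.result X x).1.2 (IsLocalRing.maximalIdeal (StO (An.hol X) x))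
    (IsLocalRing.maximalIdeal.isMaximal (StO (An.hol X) x))).symm

omit [IsReduced X] in
lemma isNoetherianRing (x : An.Pts X) : IsNoetherianRing (StO (An.hol X) x) :=
  Groth.Agent.Gaga.H145.Noeth.isNoetherianRing_stalk x

lemma exists_approx (x : An.Pts X) (k : ℕ) (b : StO (An.hol X) x) :
    ∃ a : X.presheaf.stalk x.pt, φ x a - b ∈ mx x ^ k :=
  ((Groth.Agent.S4314.result X x).2 k).1 b

lemma mem_pow (x : An.Pts X) (k : ℕ) (a : X.presheaf.stalk x.pt) (h : φ x a ∈ mx x ^ k) :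
    a ∈ IsLocalRing.maximalIdeal (X.presheaf.stalk x.pt) ^ k :=
  ((Groth.Agent.S4314.result X x).2 k).2 a h

/-- A finite family of germs comes from a common neighbourhood. -/
lemma exists_germ_fin {Y : Scheme.{0}} (p : Y) {n : ℕ} (τ : Fin n → Y.presheaf.stalk p) :
    ∃ (V : Y.Opens) (hp : p ∈ V) (t : Fin n → Γ(Y, V)), ∀ i, Y.presheaf.germ V p hp (t i) = τ i := by
  choose V hV t ht using fun i => TopCat.Presheaf.exists_germ_eq Y.presheaf (τ i)
  refine ⟨⟨⋂ i, (V i : Set Y), isOpen_iInter_of_finite fun i => (V i).isOpen⟩,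
    Set.mem_iInter.2 hV, fun i => Y.presheaf.map (homOfLE fun y hy => Set.mem_iInter.1 hy i).op (t i),
    fun i => ?_⟩
  rw [← ht i]
  exact TopCat.Presheaf.germ_res_apply Y.presheaf _ _ _ _

end One

section Two

variable {W P : Scheme.{0}} [W.Over An.SC] [P.Over An.SC] (f : W ⟶ P) [f.IsOver An.SC]

lemma anR_eq (y : An.Pts W) (b : StO (An.hol P) (An.Pts.map f y)) :
    anR f y b = (PresheafedSpace.Hom.stalkMap (An.anMap f) y).hom b := by
  obtain ⟨V, hV, r, rfl⟩ := exists_gmO _ b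
  refine (stR_gmO (R := An.hol P) (R1 := An.hol W) (An.anMapRingHom f) y V hV r).trans ?_
  exact (PresheafedSpace.stalkMap_germ_apply (An.anMap f) V y hV r).symm

lemma tg_anR (y : An.Pts W) (b : StO (An.hol P) (An.Pts.map f y)) (ψ : An.Pts P → ℂ)
    (h : tg (An.Pts.map f y) b = (ψ : (𝓝 (An.Pts.map f y)).Germ ℂ)) :
    tg y (anR f y b) = ((fun z => ψ (An.Pts.map f z) : An.Pts W → ℂ) : (𝓝 y).Germ ℂ) := by
  rw [anR_eq]
  exact toGerm_stalkMap f y b ψ h

/-- The algebraic stalk at the image point. -/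
lemma anR_φ_germ (y : An.Pts W) (V : P.Opens) (hV : f y.pt ∈ V) (t : Γ(P, V)) :
    anR f y (φ (An.Pts.map f y) (P.presheaf.germ V (f y.pt) hV t)) =
      φ y ((f.stalkMap y.pt).hom (P.presheaf.germ V (f y.pt) hV t)) := by
  have h1 : (f.stalkMap y.pt).hom (P.presheaf.germ V (f y.pt) hV t) =
      W.presheaf.germ (f ⁻¹ᵁ V) y.pt hV (f.app V t) := Scheme.Hom.germ_stalkMap_apply f V y.pt hV t
  rw [h1]
  apply tg_injective y
  rw [tg_φ_germ]
  refine (tg_anR f y _ _ (tg_φ_germ (An.Pts.map f y) V hV t)).trans ?_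
  refine Germ.coe_eq.2 ?_
  filter_upwards [(An.Pts.isOpen_preimage_pt (f ⁻¹ᵁ V)).mem_nhds (show y.pt ∈ f ⁻¹ᵁ V from hV)]
    with z hz
  have hz1 : z.pt ∈ f ⁻¹ᵁ V := hz
  have hz' : (An.Pts.map f z).pt ∈ V := by rw [An.Pts.pt_map]; exact hz
  rw [evAt_of_mem hz', evAt_of_mem hz1, An.Pts.ev_map]

lemma anR_φ (y : An.Pts W) (α : P.presheaf.stalk (f y.pt)) :
    anR f y (φ (An.Pts.map f y) α) = φ y ((f.stalkMap y.pt).hom α) := by
  obtain ⟨V, hV, t, rfl⟩ := TopCat.Presheaf.exists_germ_eq P.presheaf α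
  exact anR_φ_germ f y V hV t

omit [W.Over An.SC] [P.Over An.SC] [f.IsOver An.SC] in
lemma isLocalHom_stalkMap (y : W) : IsLocalHom (f.stalkMap y).hom := inferInstance

/-- The maps on stalks send the maximal ideal into the maximal ideal. -/
lemma map_mx_le (y : An.Pts W) : (mx (An.Pts.map f y)).map (anR f y) ≤ mx y := by
  rw [Ideal.map_map, Ideal.map_le_iff_le_comap]
  intro x hx
  rw [Ideal.mem_comap, RingHom.comp_apply]
  have h1 := anR_φ f y x
  refine (congrArg (fun t => t ∈ mx y) h1).mpr (Ideal.mem_map_of_mem _ ?_)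
  have := isLocalHom_stalkMap f y.pt
  rw [IsLocalRing.mem_maximalIdeal, mem_nonunits_iff] at hx ⊢
  exact fun h => hx (this.map_nonunit x h)

/-- The value of a germ at the image point. -/
lemma val_map (y : An.Pts W) (α : P.presheaf.stalk (f y.pt)) :
    val y ((f.stalkMap y.pt).hom α) = val (An.Pts.map f y) α := by
  obtain ⟨V, hV, t, rfl⟩ := TopCat.Presheaf.exists_germ_eq P.presheaf α
  have h1 : (f.stalkMap y.pt).hom (P.presheaf.germ V (f y.pt) hV t) =
      W.presheaf.germ (f ⁻¹ᵁ V) y.pt hV (f.app V t) := Scheme.Hom.germ_stalkMap_apply f V y.pt hV t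
  have hy : y.pt ∈ f ⁻¹ᵁ V := hV
  have hy' : (An.Pts.map f y).pt ∈ V := hV
  refine (congrArg (val y) h1).trans ?_
  rw [val_germ]
  refine Eq.trans ?_ (val_germ (An.Pts.map f y) V hy' t).symm
  rw [evAt_of_mem hy, evAt_of_mem hy', An.Pts.ev_map]

/-- [LA] -/
theorem hol_surjective_mod [LocallyOfFiniteType (W ↘ An.SC)] [IsReduced W] (I : W.IdealSheafData) (y : An.Pts W)
    (hs : ∀ a : W.presheaf.stalk y.pt, ∃ b : P.presheaf.stalk (f y.pt),
      a - (f.stalkMap y.pt).hom b ∈ stIdeal I y.pt)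
    (a : StO (An.hol W) y) :
    ∃ b : StO (An.hol P) (An.Pts.map f y), a - anR f y b ∈ idealAt I y := by
  rw [idealAt_eq]
  by_cases hI : stIdeal I y.pt = ⊤
  · exact ⟨0, by rw [hI, Ideal.map_top]; trivial⟩
  have hIm : stIdeal I y.pt ≤ IsLocalRing.maximalIdeal _ := IsLocalRing.le_maximalIdeal hI
  obtain ⟨U, hU, hy, n, s, hs'⟩ := exists_gens y
  obtain ⟨ψ, hψ, ha⟩ := exists_chartAt_of_stk a
  obtain ⟨G, hG, he⟩ := exists_fun_of_chartAt hU s hs' hy hψ
  have hea : a = cmp s hy (germOf _ G hG) := by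
    apply tg_injective y
    rw [tg_cmp_germOf]
    exact ha.trans (Germ.coe_eq.2 he)
  choose τ hτ using fun i => hs (W.presheaf.germ U y.pt hy (s i))
  obtain ⟨V, hV, t, ht⟩ := exists_germ_fin (f y.pt) τ
  have hV' : (An.Pts.map f y).pt ∈ V := hV
  have hc : vals V t (An.Pts.map f y) = vals U s y := by
    funext i
    have h1 : val y (W.presheaf.germ U y.pt hy (s i) - (f.stalkMap y.pt).hom (τ i)) = 0 :=
      (mem_maximalIdeal_iff y _).1 (hIm (hτ i))
    rw [map_sub, sub_eq_zero, val_germ, val_map, ← ht i] at h1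
    exact (h1.trans (val_germ (An.Pts.map f y) V hV' (t i))).symm
  have hG' : ∀ᶠ w in 𝓝 (vals V t (An.Pts.map f y)), DifferentiableAt ℂ G w := by rw [hc]; exact hG
  refine ⟨cmp t hV' (germOf _ G hG'), ?_⟩
  have := isLocalRing y
  have := isNoetherianRing y
  refine mem_of_forall_mem_sup_pow _ fun k => ?_
  have key : ∀ (c : Fin n → ℂ) (h : c = vals U s y), ∃ p : MvPolynomial (Fin n) ℂ,
      germOf (vals U s y) G hG - polyGerm (vals U s y) p ∈ crd (vals U s y) ^ k ∧
      germOf c G (by rw [h]; exact hG) - polyGerm c p ∈ crd c ^ k := by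
    rintro _ rfl
    obtain ⟨p, hp⟩ := exists_taylor (vals U s y) k (germOf (vals U s y) G hG)
    exact ⟨p, hp, hp⟩
  obtain ⟨p, hp1, hp2⟩ := key _ hc
  have h1 := cmp_mem s hy k hp1
  have h2 := cmp_mem t hV' k hp2
  rw [map_sub, ← hea, cmp_polyGerm] at h1
  rw [map_sub, cmp_polyGerm] at h2
  set b := cmp t hV' (germOf _ G hG') with hb
  set A := φ y (W.presheaf.germ U y.pt hy (MvPolynomial.eval₂Hom (strU U) s p)) with hA
  set B := φ (An.Pts.map f y) (P.presheaf.germ V (An.Pts.map f y).pt hV'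
    (MvPolynomial.eval₂Hom (strU V) t p)) with hB
  have h3 : A - anR f y B ∈ (stIdeal I y.pt).map (φ y) := by
    rw [← Ideal.Quotient.eq_zero_iff_mem, map_sub, sub_eq_zero]
    have e : (Ideal.Quotient.mk ((stIdeal I y.pt).map (φ y))).comp ((φ y).comp
          ((W.presheaf.germ U y.pt hy).hom.comp (MvPolynomial.eval₂Hom (strU U) s))) =
        (Ideal.Quotient.mk ((stIdeal I y.pt).map (φ y))).comp ((anR f y).comp
          ((φ (An.Pts.map f y)).comp ((P.presheaf.germ V (An.Pts.map f y).pt hV').hom.comp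
            (MvPolynomial.eval₂Hom (strU V) t)))) := by
      refine MvPolynomial.ringHom_ext (fun r => ?_) (fun i => ?_)
      · simp only [RingHom.comp_apply, MvPolynomial.eval₂Hom_C]
        congr 1
        apply tg_injective y
        refine (tg_φ_germ y U hy (strU U r)).trans ?_
        refine Eq.trans ?_ (tg_anR f y _ _ (tg_φ_germ (An.Pts.map f y) V hV' (strU V r))).symm
        refine Germ.coe_eq.2 ?_
        filter_upwards [(An.Pts.isOpen_preimage_pt U).mem_nhds hy,
          (An.Pts.isOpen_preimage_pt (f ⁻¹ᵁ V)).mem_nhds (show y.pt ∈ f ⁻¹ᵁ V from hV)] with z h1 h2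
        have h3 : z.pt ∈ U := h1
        have h4 : (An.Pts.map f z).pt ∈ V := h2
        rw [evAt_of_mem h3, evAt_of_mem h4, ev_strU, ev_strU]
      · simp only [RingHom.comp_apply, MvPolynomial.eval₂Hom_X']
        rw [← sub_eq_zero, ← map_sub, Ideal.Quotient.eq_zero_iff_mem]
        have h5 : anR f y (φ (An.Pts.map f y)
            ((P.presheaf.germ V (An.Pts.map f y).pt hV').hom (t i))) =
            φ y ((f.stalkMap y.pt).hom (τ i)) := by
          rw [← ht i]
          exact anR_φ_germ f y V hV (t i)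
        rw [h5, ← map_sub]
        exact Ideal.mem_map_of_mem _ (hτ i)
    exact congrArg (fun q => q p) e
  have e : a - anR f y b = (A - anR f y B) + ((a - A) - anR f y (b - B)) := by
    rw [map_sub]; ring
  rw [e]
  refine add_mem (Ideal.mem_sup_left h3) (Ideal.mem_sup_right ?_)
  rw [← map_max]
  refine sub_mem h1 ?_
  have h6 := Ideal.mem_map_of_mem (anR f y) h2
  rw [Ideal.map_pow] at h6
  exact Ideal.pow_right_mono (map_mx_le f y) k h6

/-- [LA2] -/
theorem hol_kernel_mod [LocallyOfFiniteType (W ↘ An.SC)] [LocallyOfFiniteType (P ↘ An.SC)]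
    [IsReduced W] [IsReduced P] (I : W.IdealSheafData) (K : P.IdealSheafData) (y : An.Pts W)
    (hs : ∀ a : W.presheaf.stalk y.pt, ∃ b : P.presheaf.stalk (f y.pt),
      a - (f.stalkMap y.pt).hom b ∈ stIdeal I y.pt)
    (hK : ∀ b : P.presheaf.stalk (f y.pt), (f.stalkMap y.pt).hom b ∈ stIdeal I y.pt →
      b ∈ stIdeal K (f y.pt))
    (b : StO (An.hol P) (An.Pts.map f y)) (hb : anR f y b ∈ idealAt I y) :
    b ∈ idealAt K (An.Pts.map f y) := by
  rw [idealAt_eq] at hb ⊢
  have := isLocalRing (An.Pts.map f y)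
  have := isNoetherianRing (An.Pts.map f y)
  have := isLocalHom_stalkMap f y.pt
  let φP : P.presheaf.stalk (f y.pt) →+* StO (An.hol P) (An.Pts.map f y) := φ (An.Pts.map f y)
  exact kernel_mod φP (φ y) (f.stalkMap y.pt).hom (anR f y)
    (fun a => anR_φ f y a) (stIdeal I y.pt) hs (map_max (An.Pts.map f y))
    (exists_approx (An.Pts.map f y)) (exists_approx y) (mem_pow y)
    (stIdeal K (f y.pt)) hK b hb

end Two

end Groth.Agent.Gaga.H297.HolMod
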