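import Groth.Agent.Gaga.H145.Surj
import Groth.Agent.Gaga.H145.Hadamard

/-!
# Taylor approximation of holomorphic germs by polynomials, and germs of composites with sections

* `polyGerm c : MvPolynomial (Fin n) ℂ →+* HolGerm c`;
* `exists_taylor`: every holomorphic germ at `c` is a polynomial modulo any power of the ideal
  generated by the `xᵢ - cᵢ`;
* `compStk`: `G ↦ G ∘ (s₁, …, sₙ)` as a ring homomorphism `HolGerm c →+* stk x`, for arbitrary
  sections `sᵢ` near `x` with `s(x) = c`.
-/

set_option autoImplicit false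
open CategoryTheory AlgebraicGeometry Topology TopologicalSpace Opposite Filter
open Groth.Agent.An.H863.PtsBasic Groth.Agent.An.H863.PtsCont
open Groth.Agent.Gaga.H990.ChartAt Groth.Agent.Gaga.H990.Stalk Groth.Agent.Gaga.H145.Surj

noncomputable section

namespace Groth.Agent.Gaga.H297.Taylor

section Poly

variable {n : ℕ} (c : Fin n → ℂ)

/-- The germ at `c` of a polynomial function. -/
def polyGerm : MvPolynomial (Fin n) ℂ →+* HolGerm c where
  toFun p := ⟨((fun w => MvPolynomial.eval w p : (Fin n → ℂ) → ℂ) : (𝓝 c).Germ ℂ),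
    _, Eventually.of_forall fun w => differentiable_eval p w, rfl⟩
  map_one' := by
    apply Subtype.ext
    refine Germ.coe_eq.2 (Eventually.of_forall fun w => ?_)
    exact map_one _
  map_zero' := by
    apply Subtype.ext
    refine Germ.coe_eq.2 (Eventually.of_forall fun w => ?_)
    exact map_zero _
  map_mul' p q := by
    apply Subtype.ext
    refine Germ.coe_eq.2 (Eventually.of_forall fun w => ?_)
    exact map_mul _ _ _
  map_add' p q := by
    apply Subtype.ext
    refine Germ.coe_eq.2 (Eventually.of_forall fun w => ?_)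
    exact map_add _ _ _

lemma polyGerm_val (p : MvPolynomial (Fin n) ℂ) :
    (polyGerm c p).1 = ((fun w => MvPolynomial.eval w p : (Fin n → ℂ) → ℂ) : (𝓝 c).Germ ℂ) := rfl

/-- The ideal generated by the coordinates centred at `c`. -/
def crd : Ideal (HolGerm c) :=
  Ideal.span (Set.range fun i => polyGerm c (MvPolynomial.X i - MvPolynomial.C (c i)))

/-- **Taylor approximation.** -/
theorem exists_taylor (k : ℕ) (g : HolGerm c) :
    ∃ p : MvPolynomial (Fin n) ℂ, g - polyGerm c p ∈ crd c ^ k := by
  induction k generalizing g with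
  | zero => exact ⟨0, by rw [pow_zero, Ideal.one_eq_top]; trivial⟩
  | succ k ih =>
    obtain ⟨_, G, hG, rfl⟩ := g
    obtain ⟨V, hV1, hV2, hV3⟩ := eventually_nhds_iff.1 hG
    obtain ⟨V', hV', hV'o, hcV', H, hH, hGH⟩ := H145.Hadamard.hadamard hV2
      (fun w hw => (hV1 w hw).differentiableWithinAt) hV3
    have hHd : ∀ i, ∀ᶠ w in 𝓝 c, DifferentiableAt ℂ (H i) w := fun i => by
      filter_upwards [hV'o.mem_nhds hcV'] with w hw
      exact (hH i w hw).differentiableAt (hV'o.mem_nhds hw)
    let h : Fin n → HolGerm c := fun i => ⟨(H i : (𝓝 c).Germ ℂ), H i, hHd i, rfl⟩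
    choose p hp using fun i => ih (h i)
    refine ⟨MvPolynomial.C (G c) + ∑ i, (MvPolynomial.X i - MvPolynomial.C (c i)) * p i, ?_⟩
    have e : (⟨(G : (𝓝 c).Germ ℂ), G, hG, rfl⟩ : HolGerm c) =
        polyGerm c (MvPolynomial.C (G c)) +
          ∑ i, polyGerm c (MvPolynomial.X i - MvPolynomial.C (c i)) * h i := by
      apply Subtype.ext
      have e1 : ((polyGerm c (MvPolynomial.C (G c)) +
          ∑ i, polyGerm c (MvPolynomial.X i - MvPolynomial.C (c i)) * h i : HolGerm c) :
            (𝓝 c).Germ ℂ) =
          ((fun w => G c + ∑ i, (w i - c i) * H i w : (Fin n → ℂ) → ℂ) : (𝓝 c).Germ ℂ) := by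
        rw [Subring.coe_add, AddSubmonoidClass.coe_finsetSum]
        have e2 : ∀ i, ((polyGerm c (MvPolynomial.X i - MvPolynomial.C (c i)) * h i : HolGerm c) :
            (𝓝 c).Germ ℂ) =
            ((fun w => (w i - c i) * H i w : (Fin n → ℂ) → ℂ) : (𝓝 c).Germ ℂ) := by
          intro i
          rw [Subring.coe_mul, polyGerm_val]
          refine Germ.coe_eq.2 (Eventually.of_forall fun w => ?_)
          simp
        rw [Finset.sum_congr rfl fun i _ => e2 i, polyGerm_val]
        have e3 : ∀ s : Finset (Fin n),
            ∑ i ∈ s, ((fun w => (w i - c i) * H i w : (Fin n → ℂ) → ℂ) : (𝓝 c).Germ ℂ) =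
            ((fun w => ∑ i ∈ s, (w i - c i) * H i w : (Fin n → ℂ) → ℂ) : (𝓝 c).Germ ℂ) := by
          intro s
          classical
          induction s using Finset.induction_on with
          | empty => simp only [Finset.sum_empty]; rfl
          | insert a s ha ih =>
            rw [Finset.sum_insert ha, ih]
            refine Germ.coe_eq.2 (Eventually.of_forall fun w => ?_)
            simp only [Finset.sum_insert ha]
        rw [e3]
        refine Germ.coe_eq.2 (Eventually.of_forall fun w => ?_)
        simp
      rw [e1]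
      refine Germ.coe_eq.2 ?_
      filter_upwards [hV'o.mem_nhds hcV'] with w hw
      exact hGH w hw
    rw [e, map_add, map_sum]
    have e4 : polyGerm c (MvPolynomial.C (G c)) +
          ∑ i, polyGerm c (MvPolynomial.X i - MvPolynomial.C (c i)) * h i -
        (polyGerm c (MvPolynomial.C (G c)) +
          ∑ i, polyGerm c ((MvPolynomial.X i - MvPolynomial.C (c i)) * p i)) =
        ∑ i, polyGerm c (MvPolynomial.X i - MvPolynomial.C (c i)) * (h i - polyGerm c (p i)) := by
      rw [add_sub_add_left_eq_sub, ← Finset.sum_sub_distrib]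
      refine Finset.sum_congr rfl fun i _ => ?_
      rw [map_mul, mul_sub]
    rw [e4, pow_succ']
    exact Ideal.sum_mem _ fun i _ => Ideal.mul_mem_mul
      (Ideal.subset_span ⟨i, rfl⟩) (hp i)

end Poly

section Comp

variable {X : Scheme.{0}} [X.Over An.SC]

/-- `G ↦ G ∘ (s₁, …, sₙ)` for arbitrary sections near `x`. -/
def compStk {U : X.Opens} {n : ℕ} (s : Fin n → Γ(X, U)) {x : An.Pts X} (hx : x.pt ∈ U) :
    HolGerm (vals U s x) →+* stk x :=
  ((RingEquiv.ofBijective (toGerm x).rangeRestrict
      ⟨fun _ _ h => toGerm_injective x (congrArg Subtype.val h),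
        (toGerm x).rangeRestrict_surjective⟩).symm : (toGerm x).range →+* stk x).comp
    ((((pullGerm (continuousAt_vals U s hx)).comp (HolGerm (vals U s x)).subtype).codRestrict
      (toGerm x).range (fun g => by
        obtain ⟨_, G, hG, rfl⟩ := g
        exact (mem_range_toGerm_iff _).2 (chartAt_comp_vals s hx hG))))

lemma toGerm_compStk {U : X.Opens} {n : ℕ} (s : Fin n → Γ(X, U)) {x : An.Pts X} (hx : x.pt ∈ U)
    (g : HolGerm (vals U s x)) :
    toGerm x (compStk s hx g) = pullGerm (continuousAt_vals U s hx) g.1 := by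
  set e := RingEquiv.ofBijective (toGerm x).rangeRestrict
      ⟨fun _ _ h => toGerm_injective x (congrArg Subtype.val h),
        (toGerm x).rangeRestrict_surjective⟩ with he
  have h1 : ∀ r : (toGerm x).range, toGerm x (e.symm r) = r.1 := by
    intro r
    have := e.apply_symm_apply r
    exact congrArg Subtype.val this
  exact h1 _

end Comp

end Groth.Agent.Gaga.H297.Taylor
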